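import Cfsg.Agent.H716.K547.Sq
import Cfsg.Agent.H716.K547.Inv
import Cfsg.Agent.H716.K547.RkTwo
import Cfsg.Agent.H951.K547.Gen
import Cfsg.Agent.H845.K547.Jordan
import Cfsg.Agent.S0249
import Cfsg.Agent.H100.AltSyl.PslPts

/-!
# S4547 (helper716): the rows of the outer 2-automorphisms of `PSL_n(q)`, `q` odd, `n ≥ 4`
-/

set_option autoImplicit false

namespace Cfsg.Agent.H716.K547

open Matrix Equiv Cfsg.Agent.H821.K547

theorem psl_noncomm {F : Type*} [Field F] {n : ℕ} (hn : 3 ≤ n) :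
    ¬ ∀ a b : ProjectiveSpecialLinearGroup (Fin n) F, a * b = b * a := by
  haveI : Nontrivial (Fin n) := Fin.nontrivial_iff_two_le.2 (by omega)
  exact Cfsg.Agent.H100.AltSyl.psl_not_comm

/-- the rows of the outer 2-automorphisms of `PSL_n(q)` -/
theorem ext_psl_of {F : Type*} [Field F] [Fintype F] {n : ℕ} (ho : Odd (Fintype.card F)) (hn : 4 ≤ n)
    (hD : Fintype.card F % 4 = 3 → D3 (ProjectiveSpecialLinearGroup (Fin n) F))
    (τ : MulAut (ProjectiveSpecialLinearGroup (Fin n) F)) (hτ : TwoPow τ) (hni : ¬ IsInn τ) : D3 (AutExt τ) := by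
  haveI : IsSimpleGroup (ProjectiveSpecialLinearGroup (Fin n) F) := Cfsg.Agent.S0249.result n (by omega)
  have hna := psl_noncomm (F := F) (n := n) (by omega)
  have hcard : Fintype.card F % 4 = 1 ∨ Fintype.card F % 4 = 3 := by
    obtain ⟨k, hk⟩ := ho
    omega
  rcases hcard with h | h
  · obtain ⟨M, s, f, h1, h2, h3⟩ := exists_inv h (by omega : 3 ≤ n) τ
    refine Cfsg.Agent.H951.K547.gen_inner (Cfsg.Agent.H951.K547.center_of_simple hna)
      (Cfsg.Agent.H951.K547.commutator_of_simple hna) τ hτ hni s M h1 ?_ f h2 1 ?_ (rk_two_perm hn)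
    · intro x hx
      obtain ⟨h4, -⟩ := h3 ⟨x, hx⟩
      exact h4
    · intro m m' hm
      obtain ⟨h4, h5⟩ := h3 m
      rw [one_mul, inv_one, mul_one, ← h5]
      congr 1
      exact Subtype.ext hm
  · exact Cfsg.Agent.H845.K547.d3_autExt (fun h1 => hna h1.is_comm.comm) (hD h) (sq_inner h (by omega) τ hτ) hni

end Cfsg.Agent.H716.K547
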